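import Cfsg.Agent.Trans25.Basic

/-!
Transvections form one class of the general linear group; their number.
-/

set_option autoImplicit false

namespace Cfsg.Agent.Forms

open Matrix

variable {F : Type*} [Field F] {n : ℕ}

theorem exists_GL_conj_normal_form (t : GL (Fin (n + 2)) F)
    (ht : Cfsg.IsTransvection (t : Matrix (Fin (n + 2)) (Fin (n + 2)) F)) :
    ∃ g : GL (Fin (n + 2)) F, ((g⁻¹ * t * g : GL (Fin (n + 2)) F) :
      Matrix (Fin (n + 2)) (Fin (n + 2)) F) = 1 + vecMulVec (Pi.single 1 1) (Pi.single 0 1) := by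
  obtain ⟨hr, hsq⟩ := ht
  obtain ⟨u, w, hu, hw, hN⟩ := Trans25.exists_rank_one _ hr
  obtain ⟨s, a, ha, hs⟩ := Trans25.exists_sl_vecMul w hw
  set S := (s : Matrix (Fin (n + 2)) (Fin (n + 2)) F)
  set S' := ((s⁻¹ : Matrix.SpecialLinearGroup (Fin (n + 2)) F) : Matrix (Fin (n + 2)) (Fin (n + 2)) F)
  set v := a • (S' *ᵥ u)
  have hvne : v ≠ 0 := fun h => hu (by
    have := congrArg (fun x => S *ᵥ x) h
    simp only [v, mulVec_smul, mulVec_mulVec, mulVec_zero, S, S', Trans25.sl_mul_inv, one_mulVec] at this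
    exact (smul_eq_zero.1 this).resolve_left ha)
  have hv0 : v 0 = 0 := by
    have hwu : w ⬝ᵥ u = 0 := by
      rw [hN, vecMulVec_mul_vecMulVec] at hsq
      obtain ⟨i, hi⟩ := Function.ne_iff.1 hu
      obtain ⟨j, hj⟩ := Function.ne_iff.1 hw
      have := congrFun (congrFun hsq i) j
      simpa [vecMulVec_apply, show u i ≠ 0 from hi, show w j ≠ 0 from hj] using this
    have h : (w ᵥ* S) ⬝ᵥ (S' *ᵥ u) = 0 := by
      rw [← dotProduct_mulVec, mulVec_mulVec, Trans25.sl_mul_inv, one_mulVec, hwu]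
    rw [hs] at h
    simpa [v] using h
  obtain ⟨k, hk⟩ : ∃ k, v k ≠ 0 := Function.ne_iff.1 hvne
  have hk0 : (0 : Fin (n + 2)) ≠ k := fun h => hk (h ▸ hv0)
  set σ : Equiv.Perm (Fin (n + 2)) := Equiv.swap 1 k
  set M := ((1 : Matrix (Fin (n + 2)) (Fin (n + 2)) F).updateCol k v) * σ.permMatrix F
  have hMd : M.det ≠ 0 := by
    rw [det_mul, det_permutation]
    refine mul_ne_zero ?_ (by rcases Int.units_eq_one_or (Equiv.Perm.sign σ) with h | h <;> simp [h])
    rw [← Matrix.cramer_apply, Matrix.cramer_one]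
    exact hk
  have hM1 : M *ᵥ (Pi.single 1 1) = v := by
    rw [← mulVec_mulVec]
    have h1 : σ.permMatrix F *ᵥ (Pi.single 1 1) = (Pi.single k 1 : Fin (n + 2) → F) := by
      ext i
      simp only [σ, Matrix.permMatrix_mulVec, Function.comp_apply]
      by_cases h : i = k
      · subst h; simp
      · rw [Pi.single_eq_of_ne h, Pi.single_eq_of_ne]
        intro e
        exact h (by simpa using congrArg (Equiv.swap 1 k) e)
    rw [h1, mulVec_single_one]
    ext i; simp
  have hM0 : (Pi.single 0 1 : Fin (n + 2) → F) ᵥ* M = Pi.single 0 1 := by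
    rw [← vecMul_vecMul, single_one_vecMul]
    have h1 : ((1 : Matrix (Fin (n + 2)) (Fin (n + 2)) F).updateCol k v).row 0 = Pi.single 0 1 := by
      ext j
      by_cases hj : j = k
      · subst hj; simp [Matrix.row, hv0, hk0.symm]
      · simp [Matrix.row, Matrix.updateCol_ne hj, Matrix.one_apply, Pi.single_apply, eq_comm]
    rw [h1, single_one_vecMul]
    ext j
    have hs0 : σ 0 = 0 := Equiv.swap_apply_of_ne_of_ne (by simp) hk0
    simp [Matrix.row, Equiv.Perm.permMatrix, PEquiv.toMatrix_apply, hs0, Pi.single_apply, eq_comm]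
  let g : GL (Fin (n + 2)) F := Matrix.SpecialLinearGroup.toGL s * Matrix.GeneralLinearGroup.mkOfDetNeZero M hMd
  refine ⟨g, ?_⟩
  have hT : (t : Matrix (Fin (n + 2)) (Fin (n + 2)) F) = 1 + vecMulVec u w := by rw [← hN]; abel
  have key : (t : Matrix (Fin (n + 2)) (Fin (n + 2)) F) * (S * M)
      = (S * M) * (1 + vecMulVec (Pi.single 1 1) (Pi.single 0 1)) := by
    rw [hT, add_mul, one_mul, mul_add, mul_one, add_right_inj, vecMulVec_mul, mul_vecMulVec,
      ← vecMul_vecMul w S M, hs, smul_vecMul, hM0, ← mulVec_mulVec, hM1]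
    simp only [v, mulVec_smul, mulVec_mulVec, S, S', Trans25.sl_mul_inv, one_mulVec]
    rw [vecMulVec_smul, smul_vecMulVec]
  have h2 : t * g = g * (g⁻¹ * t * g) := by group
  have h3 : ((g : GL (Fin (n + 2)) F) : Matrix (Fin (n + 2)) (Fin (n + 2)) F) = S * M := rfl
  have h4 : (t : Matrix (Fin (n + 2)) (Fin (n + 2)) F) * (S * M)
      = (S * M) * ((g⁻¹ * t * g : GL (Fin (n + 2)) F) : Matrix (Fin (n + 2)) (Fin (n + 2)) F) := by
    rw [← h3, ← Units.val_mul, ← Units.val_mul, ← h2]
  have hu : IsUnit (S * M) := h3 ▸ g.isUnit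
  exact (hu.mul_left_cancel (key.symm.trans h4)).symm

variable [Fintype F]

/-- The centraliser order times the number of transvection pairs. -/
theorem card_centralizer_transvection_mul (t : GL (Fin (n + 2)) F)
    (ht : Cfsg.IsTransvection (t : Matrix (Fin (n + 2)) (Fin (n + 2)) F)) :
    Nat.card ↥(Subgroup.centralizer ({t} : Set (GL (Fin (n + 2)) F))) *
      ((Fintype.card F ^ (n + 2) - 1) * (Fintype.card F ^ (n + 1) - 1)) =
      Nat.card (GL (Fin (n + 2)) F) * (Fintype.card F - 1) := by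
  classical
  set q := Fintype.card F
  let V := Fin (n + 2) → F
  -- transvections
  let T := {s : GL (Fin (n + 2)) F // Cfsg.IsTransvection (s : Matrix (Fin (n + 2)) (Fin (n + 2)) F)}
  have hconj : ∀ g s : GL (Fin (n + 2)) F, Cfsg.IsTransvection (s : Matrix (Fin (n + 2)) (Fin (n + 2)) F) →
      Cfsg.IsTransvection ((g * s * g⁻¹ : GL (Fin (n + 2)) F) : Matrix (Fin (n + 2)) (Fin (n + 2)) F) := by
    intro g s hs
    have e : ((g * s * g⁻¹ : GL (Fin (n + 2)) F) : Matrix (Fin (n + 2)) (Fin (n + 2)) F) - 1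
        = (g : Matrix (Fin (n + 2)) (Fin (n + 2)) F) * ((s : Matrix (Fin (n + 2)) (Fin (n + 2)) F) - 1)
          * ((g⁻¹ : GL (Fin (n + 2)) F) : Matrix (Fin (n + 2)) (Fin (n + 2)) F) := by
      simp only [Units.val_mul, mul_sub, sub_mul, mul_one]
      rw [Units.mul_inv]
    refine ⟨?_, ?_⟩
    · rw [e, Matrix.rank_mul_eq_left_of_isUnit_det _ _ ((Matrix.isUnit_iff_isUnit_det _).1 (g⁻¹).isUnit),
        Matrix.rank_mul_eq_right_of_isUnit_det _ _ ((Matrix.isUnit_iff_isUnit_det _).1 g.isUnit)]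
      exact hs.1
    · rw [e]
      set A := (g : Matrix (Fin (n + 2)) (Fin (n + 2)) F)
      set B := ((g⁻¹ : GL (Fin (n + 2)) F) : Matrix (Fin (n + 2)) (Fin (n + 2)) F)
      set X := (s : Matrix (Fin (n + 2)) (Fin (n + 2)) F) - 1
      have hBA : B * A = 1 := g.inv_mul
      calc A * X * B * (A * X * B) = A * X * (B * A) * X * B := by simp only [mul_assoc]
        _ = A * (X * X) * B := by rw [hBA, mul_one]; simp only [mul_assoc]
        _ = 0 := by rw [hs.2, mul_zero, zero_mul]
  let f : GL (Fin (n + 2)) F → T := fun g => ⟨g * t * g⁻¹, hconj g t ht⟩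
  have hf : Function.Surjective f := by
    intro s
    obtain ⟨g, hg⟩ := exists_GL_conj_normal_form t ht
    obtain ⟨g', hg'⟩ := exists_GL_conj_normal_form s.1 s.2
    refine ⟨g' * g⁻¹, Subtype.ext ?_⟩
    have e : g⁻¹ * t * g = g'⁻¹ * s.1 * g' := Units.ext (hg.trans hg'.symm)
    show g' * g⁻¹ * t * (g' * g⁻¹)⁻¹ = s.1
    calc g' * g⁻¹ * t * (g' * g⁻¹)⁻¹ = g' * (g⁻¹ * t * g) * g'⁻¹ := by group
      _ = s.1 := by rw [e]; group
  have hfib : ∀ a b, f a = f b ↔ a⁻¹ * b ∈ Subgroup.centralizer ({t} : Set (GL (Fin (n + 2)) F)) := by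
    intro a b
    rw [Subtype.ext_iff, Subgroup.mem_centralizer_singleton_iff]
    show a * t * a⁻¹ = b * t * b⁻¹ ↔ _
    constructor
    · intro h
      calc a⁻¹ * b * t = a⁻¹ * (b * t * b⁻¹) * b := by group
        _ = t * (a⁻¹ * b) := by rw [← h]; group
    · intro h
      calc a * t * a⁻¹ = a * (t * (a⁻¹ * b)) * b⁻¹ := by group
        _ = b * t * b⁻¹ := by rw [← h]; group
  let F' : GL (Fin (n + 2)) F ⧸ Subgroup.centralizer ({t} : Set (GL (Fin (n + 2)) F)) → T :=
    fun x => Quotient.liftOn' x f fun a b e => (hfib a b).2 (QuotientGroup.leftRel_apply.1 e)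
  have hF' : Function.Bijective F' := by
    constructor
    · intro x y
      induction x using QuotientGroup.induction_on with | H a =>
      induction y using QuotientGroup.induction_on with | H b =>
      intro e
      exact QuotientGroup.eq.2 ((hfib a b).1 e)
    · intro s
      obtain ⟨a, ha⟩ := hf s
      exact ⟨QuotientGroup.mk a, ha⟩
  have hG : Nat.card (GL (Fin (n + 2)) F) =
      Nat.card T * Nat.card ↥(Subgroup.centralizer ({t} : Set (GL (Fin (n + 2)) F))) := by
    rw [← Nat.card_congr (Equiv.ofBijective F' hF'), ← Subgroup.card_eq_card_quotient_mul_card_subgroup]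
  -- pairs
  let P := Σ u : {u : V // u ≠ 0}, {w : V // w ⬝ᵥ u.1 = 0 ∧ w ≠ 0}
  have hmk : ∀ p : P, ((1 : Matrix (Fin (n + 2)) (Fin (n + 2)) F) + vecMulVec p.1.1 p.2.1).det ≠ 0 := by
    intro p
    rw [Matrix.vecMulVec_eq Unit, Matrix.det_one_add_replicateCol_mul_replicateRow, p.2.2.1, add_zero]
    exact one_ne_zero
  let π : P → T := fun p => ⟨Matrix.GeneralLinearGroup.mkOfDetNeZero _ (hmk p), by
    show Cfsg.IsTransvection ((1 : Matrix (Fin (n + 2)) (Fin (n + 2)) F) + vecMulVec p.1.1 p.2.1)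
    rw [Cfsg.IsTransvection, add_sub_cancel_left]
    refine ⟨le_antisymm (Matrix.rank_vecMulVec_le _ _) (Nat.one_le_iff_ne_zero.2 fun h => ?_), ?_⟩
    · have h0 : vecMulVec p.1.1 p.2.1 = 0 := by
        rw [Matrix.rank, Submodule.finrank_eq_zero, LinearMap.range_eq_bot] at h
        ext a b; simpa [Matrix.mulVecLin] using congrFun (LinearMap.congr_fun h (Pi.single b 1)) a
      obtain ⟨i, hi⟩ := Function.ne_iff.1 p.1.2
      obtain ⟨j, hj⟩ := Function.ne_iff.1 p.2.2.2
      exact mul_ne_zero hi hj (congrFun (congrFun h0 i) j)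
    · rw [vecMulVec_mul_vecMulVec, p.2.2.1]; simp⟩
  have hπfib : ∀ s : T, Nat.card {p : P // π p = s} = q - 1 := by
    intro s
    obtain ⟨u, w, hu, hw, hN⟩ := Trans25.exists_rank_one _ s.2.1
    have hwu : w ⬝ᵥ u = 0 := by
      have hsq := s.2.2
      rw [hN, vecMulVec_mul_vecMulVec] at hsq
      obtain ⟨i, hi⟩ := Function.ne_iff.1 hu
      obtain ⟨j, hj⟩ := Function.ne_iff.1 hw
      have := congrFun (congrFun hsq i) j
      simpa [vecMulVec_apply, show u i ≠ 0 from hi, show w j ≠ 0 from hj] using this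
    let e : Fˣ → {p : P // π p = s} := fun c => ⟨⟨⟨(c : F) • u, smul_ne_zero c.ne_zero hu⟩,
        ⟨(c : F)⁻¹ • w, by rw [smul_dotProduct, dotProduct_smul, hwu]; simp,
          smul_ne_zero (inv_ne_zero c.ne_zero) hw⟩⟩, Subtype.ext (Units.ext (by
      show (1 : Matrix (Fin (n + 2)) (Fin (n + 2)) F) + vecMulVec ((c : F) • u) ((c : F)⁻¹ • w) = _
      rw [smul_vecMulVec, vecMulVec_smul, smul_smul, mul_inv_cancel₀ c.ne_zero, one_smul, ← hN]
      abel))⟩
    have he : Function.Bijective e := by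
      constructor
      · intro c c' h
        obtain ⟨i, hi⟩ := Function.ne_iff.1 hu
        have h' : (c : F) • u = (c' : F) • u := congrArg (fun p : {p : P // π p = s} => p.1.1.1) h
        exact Units.ext (smul_left_injective F hu h')
      · rintro ⟨⟨⟨u', hu'⟩, ⟨w', hwu', hw'⟩⟩, hp⟩
        have hp' : vecMulVec u' w' = vecMulVec u w := by
          have h := congrArg (fun z : T => ((z.1 : GL (Fin (n + 2)) F) : Matrix (Fin (n + 2)) (Fin (n + 2)) F) - 1) hp
          simp only [hN] at h
          rw [← h]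
          show _ = (1 : Matrix (Fin (n + 2)) (Fin (n + 2)) F) + vecMulVec u' w' - 1
          rw [add_sub_cancel_left]
        obtain ⟨i, hi⟩ := Function.ne_iff.1 hu
        obtain ⟨j, hj⟩ := Function.ne_iff.1 hw'
        replace hi : u i ≠ 0 := hi
        replace hj : w' j ≠ 0 := hj
        have hall : ∀ a b, u' a * w' b = u a * w b := fun a b => congrFun (congrFun hp' a) b
        have hj' : w j ≠ 0 := fun h0 => by
          obtain ⟨a, ha⟩ := Function.ne_iff.1 hu'
          exact mul_ne_zero ha hj (by rw [hall, h0, mul_zero])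
        refine ⟨Units.mk0 (w j / w' j) (div_ne_zero hj' hj), ?_⟩
        have hu'' : (w j / w' j) • u = u' := by
          funext a
          rw [Pi.smul_apply, smul_eq_mul, div_mul_eq_mul_div, div_eq_iff hj, hall, mul_comm]
        have hw'' : (w j / w' j)⁻¹ • w = w' := by
          funext b
          rw [Pi.smul_apply, smul_eq_mul, inv_div]
          have h1 := hall i b
          have h2 := hall i j
          have hu'i : u' i ≠ 0 := by rw [← hu'']; exact mul_ne_zero (div_ne_zero hj' hj) hi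
          rw [div_mul_eq_mul_div, div_eq_iff hj']
          apply mul_left_cancel₀ hu'i
          linear_combination (w b) * h2 - (w j) * h1
        exact Subtype.ext (Sigma.subtype_ext (Subtype.ext hu'') hw'')
    rw [← Nat.card_congr (Equiv.ofBijective e he), Nat.card_units, Nat.card_eq_fintype_card]
  have hP : Nat.card P = (q ^ (n + 2) - 1) * (q ^ (n + 1) - 1) := by
    haveI : Fintype {u : V // u ≠ 0} := Fintype.ofFinite _
    rw [Nat.card_sigma, Finset.sum_congr rfl (g := fun _ => q ^ (n + 1) - 1) (fun u _ => ?_),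
      Finset.sum_const, Finset.card_univ, smul_eq_mul]
    · rw [Fintype.card_subtype_compl, Fintype.card_subtype_eq, Fintype.card_fun, Fintype.card_fin]
    · let φ : V →ₗ[F] F :=
        { toFun := fun w => w ⬝ᵥ u.1
          map_add' := fun a b => add_dotProduct a b u.1
          map_smul' := fun c a => smul_dotProduct c a u.1 }
      have hφ : Module.finrank F (LinearMap.ker φ) = n + 1 := by
        obtain ⟨i, hi⟩ := Function.ne_iff.1 u.2
        have hsurj : LinearMap.range φ = ⊤ := LinearMap.range_eq_top.2 fun c =>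
          ⟨Pi.single i (c / u.1 i), by simp [φ, hi]; field_simp [show u.1 i ≠ 0 from hi]⟩
        have := LinearMap.finrank_range_add_finrank_ker φ
        rw [hsurj, finrank_top, Module.finrank_self, Module.finrank_fin_fun] at this
        omega
      rw [Nat.card_congr
        (show {w : V // w ⬝ᵥ u.1 = 0 ∧ w ≠ 0} ≃ {x : LinearMap.ker φ // x ≠ 0} from
          { toFun := fun w => ⟨⟨w.1, w.2.1⟩, fun h => w.2.2 (congrArg Subtype.val h)⟩
            invFun := fun x => ⟨x.1.1, x.1.2, fun h => x.2 (Subtype.ext h)⟩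
            left_inv := fun _ => rfl
            right_inv := fun _ => rfl }),
        Nat.card_eq_fintype_card, Fintype.card_subtype_compl, Fintype.card_subtype_eq,
        Module.card_eq_pow_finrank (K := F) (V := LinearMap.ker φ), hφ]
  haveI : Fintype T := Fintype.ofFinite T
  have hT : Nat.card T * (q - 1) = (q ^ (n + 2) - 1) * (q ^ (n + 1) - 1) := by
    rw [← hP, ← Nat.card_congr (Equiv.sigmaFiberEquiv π), Nat.card_sigma,
      Finset.sum_congr rfl (fun s _ => hπfib s), Finset.sum_const, Finset.card_univ,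
      Nat.card_eq_fintype_card, smul_eq_mul]
  rw [hG, ← hT]
  ring

end Cfsg.Agent.Forms
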